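import Groth.Agent.Ega43.UnivOpenFlatGeom
import Mathlib.RingTheory.Ideal.MinimalPrime.Localization
import Mathlib.RingTheory.TensorProduct.Maps
import Mathlib.LinearAlgebra.TensorProduct.RightExactness

/-!
# Flatness over a reduced quotient of the base

Version of `Ega43.UnivOpenFlatGeom.flat_aux` without the reducedness hypothesis on the base: if
`A → A₀` is a surjection of the Noetherian local ring `A` onto a reduced (local) ring, then
`A₀ ⊗_A B` is flat over `A₀`.
-/

set_option autoImplicit false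

open CategoryTheory CategoryTheory.Limits AlgebraicGeometry TensorProduct IsLocalRing

namespace Groth.Agent.Ega4fib.H131.FlatRed

universe u

section Alg

variable {A B A₀ : Type u} [CommRing A] [CommRing B] [CommRing A₀] [Algebra A B] [Algebra A A₀]

/-- The map `B → A₀ ⊗_A B` is surjective when `A → A₀` is. -/
theorem includeRight_surjective (hs : Function.Surjective (algebraMap A A₀)) :
    Function.Surjective (Algebra.TensorProduct.includeRight : B →ₐ[A] A₀ ⊗[A] B) := by
  intro x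
  induction x with
  | zero => exact ⟨0, map_zero _⟩
  | tmul a b =>
    obtain ⟨a, rfl⟩ := hs a
    refine ⟨a • b, ?_⟩
    rw [Algebra.TensorProduct.includeRight_apply, Algebra.algebraMap_eq_smul_one,
      TensorProduct.smul_tmul]
  | add x y hx hy =>
    obtain ⟨b, rfl⟩ := hx
    obtain ⟨c, rfl⟩ := hy
    exact ⟨b + c, map_add _ _ _⟩

/-- The kernel of `B → A₀ ⊗_A B` is generated by the kernel of `A → A₀`. -/
theorem ker_includeRight (hs : Function.Surjective (algebraMap A A₀)) :
    RingHom.ker (Algebra.TensorProduct.includeRight : B →ₐ[A] A₀ ⊗[A] B) =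
      (RingHom.ker (algebraMap A A₀)).map (algebraMap A B) := by
  have h1 := Algebra.TensorProduct.rTensor_ker (R := A) (S := A) (C := B) (f := Algebra.ofId A A₀) hs
  apply le_antisymm
  · intro x hx
    have h2 : (1 : A) ⊗ₜ[A] x ∈
        RingHom.ker (Algebra.TensorProduct.map (Algebra.ofId A A₀) (AlgHom.id A B)) := by
      rw [RingHom.mem_ker] at hx ⊢
      simpa using hx
    rw [h1] at h2
    have h3 : Ideal.map (Algebra.TensorProduct.includeLeft : A →ₐ[A] A ⊗[A] B)
        (RingHom.ker (Algebra.ofId A A₀)) ≤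
        ((RingHom.ker (algebraMap A A₀)).map (algebraMap A B)).comap
          (Algebra.TensorProduct.lid A B) := by
      rw [Ideal.map_le_iff_le_comap]
      intro a ha
      rw [Ideal.mem_comap, Ideal.mem_comap, Algebra.TensorProduct.includeLeft_apply,
        Algebra.TensorProduct.lid_tmul, ← Algebra.algebraMap_eq_smul_one]
      exact Ideal.mem_map_of_mem _ ha
    have h4 := h3 h2
    rw [Ideal.mem_comap, Algebra.TensorProduct.lid_tmul, one_smul] at h4
    exact h4
  · rw [Ideal.map_le_iff_le_comap]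
    intro a ha
    rw [Ideal.mem_comap, RingHom.mem_ker, AlgHom.commutes,
      IsScalarTower.algebraMap_apply A A₀ (A₀ ⊗[A] B), RingHom.mem_ker.mp ha, map_zero]

/-- If `A → A₀` is a surjection of local rings then the preimage in `B` of `𝔪_{A₀} (A₀ ⊗ B)` is
`𝔪_A B`. -/
theorem comap_map_maximalIdeal [IsLocalRing A] [IsLocalRing A₀]
    (hs : Function.Surjective (algebraMap A A₀)) :
    ((maximalIdeal A₀).map (algebraMap A₀ (A₀ ⊗[A] B))).comap
      (Algebra.TensorProduct.includeRight : B →ₐ[A] A₀ ⊗[A] B) =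
      (maximalIdeal A).map (algebraMap A B) := by
  have hm : (maximalIdeal A).map (algebraMap A A₀) = maximalIdeal A₀ := by
    have hloc : IsLocalHom (algebraMap A A₀) := IsLocalHom.of_surjective _ hs
    apply le_antisymm (IsLocalRing.map_maximalIdeal_le (algebraMap A A₀))
    intro a ha
    obtain ⟨a, rfl⟩ := hs a
    apply Ideal.mem_map_of_mem
    rw [mem_maximalIdeal, mem_nonunits_iff] at ha ⊢
    exact fun h => ha (h.map _)
  have h1 : (maximalIdeal A₀).map (algebraMap A₀ (A₀ ⊗[A] B)) =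
      ((maximalIdeal A).map (algebraMap A B)).map
        ((Algebra.TensorProduct.includeRight : B →ₐ[A] A₀ ⊗[A] B) : B →+* A₀ ⊗[A] B) := by
    rw [← hm, Ideal.map_map, Ideal.map_map, ← IsScalarTower.algebraMap_eq]
    congr 1
    exact ((Algebra.TensorProduct.includeRight : B →ₐ[A] A₀ ⊗[A] B).comp_algebraMap).symm
  have h2 : RingHom.ker (Algebra.TensorProduct.includeRight : B →ₐ[A] A₀ ⊗[A] B) ≤
      (maximalIdeal A).map (algebraMap A B) := by
    rw [ker_includeRight hs]
    apply Ideal.map_mono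
    exact IsLocalRing.le_maximalIdeal (RingHom.ker_ne_top _)
  rw [h1]
  have h3 := Ideal.comap_map_of_surjective
    ((Algebra.TensorProduct.includeRight : B →ₐ[A] A₀ ⊗[A] B) : B →+* A₀ ⊗[A] B)
    (includeRight_surjective hs) ((maximalIdeal A).map (algebraMap A B))
  refine h3.trans ?_
  exact sup_eq_left.mpr h2

/-- Minimal primes over `𝔪_{A₀} (A₀ ⊗ B)` come from minimal primes over `𝔪_A B`. -/
theorem comap_mem_minimalPrimes [IsLocalRing A] [IsLocalRing A₀]
    (hs : Function.Surjective (algebraMap A A₀)) (z : Ideal (A₀ ⊗[A] B))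
    (hz : z ∈ ((maximalIdeal A₀).map (algebraMap A₀ (A₀ ⊗[A] B))).minimalPrimes) :
    z.comap (Algebra.TensorProduct.includeRight : B →ₐ[A] A₀ ⊗[A] B) ∈
      ((maximalIdeal A).map (algebraMap A B)).minimalPrimes := by
  have h1 := Ideal.comap_minimalPrimes_eq_of_surjective
    (f := ((Algebra.TensorProduct.includeRight : B →ₐ[A] A₀ ⊗[A] B) : B →+* A₀ ⊗[A] B))
    (includeRight_surjective hs) ((maximalIdeal A₀).map (algebraMap A₀ (A₀ ⊗[A] B)))
  have h2 : ((maximalIdeal A₀).map (algebraMap A₀ (A₀ ⊗[A] B))).comap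
      ((Algebra.TensorProduct.includeRight : B →ₐ[A] A₀ ⊗[A] B) : B →+* A₀ ⊗[A] B) =
      (maximalIdeal A).map (algebraMap A B) := comap_map_maximalIdeal hs
  rw [h2] at h1
  rw [h1]
  exact ⟨z, hz, rfl⟩

/-- `A₀ ⊗_A B` is local with local structure map when `A → A₀` is a surjection of local rings and
`A → B` is local. -/
theorem isLocalRing_tensor [IsLocalRing A] [IsLocalRing A₀] [IsLocalRing B]
    [IsLocalHom (algebraMap A B)] (hs : Function.Surjective (algebraMap A A₀)) :
    IsLocalRing (A₀ ⊗[A] B) ∧ IsLocalHom (algebraMap A₀ (A₀ ⊗[A] B)) := by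
  have hnt : Nontrivial (A₀ ⊗[A] B) := by
    have h1 : RingHom.ker (Algebra.TensorProduct.includeRight : B →ₐ[A] A₀ ⊗[A] B) ≤
        maximalIdeal B := by
      rw [ker_includeRight hs]
      refine (Ideal.map_mono (IsLocalRing.le_maximalIdeal (RingHom.ker_ne_top _))).trans ?_
      exact IsLocalRing.map_maximalIdeal_le (algebraMap A B)
    refine ⟨⟨1, 0, fun h => ?_⟩⟩
    have h2 : (1 : B) ∈ RingHom.ker (Algebra.TensorProduct.includeRight : B →ₐ[A] A₀ ⊗[A] B) := by
      rw [RingHom.mem_ker, map_one]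
      exact h
    exact (maximalIdeal.isMaximal B).ne_top ((Ideal.eq_top_iff_one _).mpr (h1 h2))
  have hloc : IsLocalRing (A₀ ⊗[A] B) := IsLocalRing.of_surjective'
    ((Algebra.TensorProduct.includeRight : B →ₐ[A] A₀ ⊗[A] B) : B →+* A₀ ⊗[A] B)
    (includeRight_surjective hs)
  refine ⟨hloc, ⟨fun a ha => ?_⟩⟩
  obtain ⟨a, rfl⟩ := hs a
  rw [← IsScalarTower.algebraMap_apply] at ha
  have h3 : IsLocalHom ((Algebra.TensorProduct.includeRight : B →ₐ[A] A₀ ⊗[A] B) :
      B →+* A₀ ⊗[A] B) := IsLocalHom.of_surjective _ (includeRight_surjective hs)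
  have h4 : IsUnit (((Algebra.TensorProduct.includeRight : B →ₐ[A] A₀ ⊗[A] B) :
      B →+* A₀ ⊗[A] B) (algebraMap A B a)) := by
    have : ((Algebra.TensorProduct.includeRight : B →ₐ[A] A₀ ⊗[A] B) :
      B →+* A₀ ⊗[A] B) (algebraMap A B a) = algebraMap A (A₀ ⊗[A] B) a :=
        (Algebra.TensorProduct.includeRight : B →ₐ[A] A₀ ⊗[A] B).commutes a
    rw [this]
    exact ha
  have h5 : IsUnit (algebraMap A B a) := isUnit_of_map_unit _ _ h4
  exact (isUnit_of_map_unit (algebraMap A B) a h5).map _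

end Alg

/-- Flatness over a reduced quotient `A₀` of the base. -/
theorem flat_aux {X Y : Scheme.{u}} (f : X ⟶ Y) (A B : CommRingCat.{u}) [Algebra A B]
    (a : Spec A ⟶ Y) [Mono a] (b : Spec B ⟶ X) [Flat b]
    (h : b ≫ f = Spec.map (CommRingCat.ofHom (algebraMap A B)) ≫ a)
    [IsLocalRing A] [IsNoetherianRing A] [IsLocalRing B]
    [IsLocalHom (algebraMap A B)] [Algebra.EssFiniteType A B]
    (A₀ : Type u) [CommRing A₀] [IsLocalRing A₀] [_root_.IsReduced A₀] [Algebra A A₀]
    (hs : Function.Surjective (algebraMap A A₀))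
    (hred : _root_.IsReduced (AlgebraicClosure (ResidueField A₀) ⊗[A] B))
    (hopen : ∀ z : PrimeSpectrum B,
      z.asIdeal ∈ ((maximalIdeal A).map (algebraMap A B)).minimalPrimes →
      EGA43.IsUnivOpenAt f (b z)) : Module.Flat A₀ (A₀ ⊗[A] B) := by
  obtain ⟨hloc, hlochom⟩ := isLocalRing_tensor (A := A) (B := B) (A₀ := A₀) hs
  have hNA₀ : IsNoetherianRing A₀ := isNoetherianRing_of_surjective A A₀ (algebraMap A A₀) hs
  have hess : Algebra.EssFiniteType A₀ (A₀ ⊗[A] B) := inferInstance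
  have hred₀ : _root_.IsReduced (AlgebraicClosure (ResidueField A₀) ⊗[A₀] (A₀ ⊗[A] B)) := by
    let e := Algebra.TensorProduct.cancelBaseChange A A₀ A₀ (AlgebraicClosure (ResidueField A₀)) B
    exact isReduced_of_injective e e.injective
  refine Ega43.LocalFlat.flat_of_dvrOpen_minimalPrimes hred₀ ?_
  intro z hz hzmin
  refine Ega43.UnivOpenFlat.dvrOpen_atPrime z ?_
  intro R _ _ _ _ Q _ hQB hQR t ht s hs' n
  let _ : Algebra A R := ((algebraMap A₀ R).comp (algebraMap A A₀)).toAlgebra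
  have : IsScalarTower A A₀ R := IsScalarTower.of_algebraMap_eq' rfl
  let e : R ⊗[A₀] (A₀ ⊗[A] B) ≃ₐ[R] R ⊗[A] B :=
    Algebra.TensorProduct.cancelBaseChange A A₀ R R B
  let Q' : Ideal (R ⊗[A] B) := Q.comap e.symm
  have hQ' : Q'.IsPrime := Ideal.comap_isPrime _ _
  let z' : PrimeSpectrum B :=
    ⟨z.comap (Algebra.TensorProduct.includeRight : B →ₐ[A] A₀ ⊗[A] B), Ideal.comap_isPrime _ _⟩
  have hz' : z'.asIdeal ∈ ((maximalIdeal A).map (algebraMap A B)).minimalPrimes :=
    comap_mem_minimalPrimes hs z hzmin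
  have hQ'B : Q'.comap (Algebra.TensorProduct.includeRight : B →ₐ[A] R ⊗[A] B) = z'.asIdeal := by
    ext y
    have h1 : e.symm ((Algebra.TensorProduct.includeRight : B →ₐ[A] R ⊗[A] B) y) =
        (1 : R) ⊗ₜ[A₀] ((1 : A₀) ⊗ₜ[A] y) := rfl
    change e.symm ((Algebra.TensorProduct.includeRight : B →ₐ[A] R ⊗[A] B) y) ∈ Q ↔
      (1 : A₀) ⊗ₜ[A] y ∈ z
    rw [h1, ← hQB]
    rfl
  have hQ'R : Q'.comap (algebraMap R (R ⊗[A] B)) = maximalIdeal R := by
    rw [← hQR]
    ext r
    change e.symm (algebraMap R (R ⊗[A] B) r) ∈ Q ↔ _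
    rw [e.symm.commutes]
    rfl
  have hes : e s ∉ Q' := by
    change ¬ (e.symm (e s) ∈ Q)
    rw [e.symm_apply_apply]
    exact hs'
  have key := Ega43.UnivOpenDvr.dvrOpen_of_isUnivOpenAt f (A := A) (B := B) a b h z'
    (hopen z' hz') R Q' hQ'B hQ'R t ht (e s) hes n
  intro h0
  apply key
  rw [← e.commutes t, ← map_pow, ← map_mul, h0, map_zero]

end Groth.Agent.Ega4fib.H131.FlatRed
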