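import Groth.Agent.Ega4fib.H131.FlatRed

/-!
# Geometrically pointwise integral fibres in terms of `K ⊗ 𝒪_x`
-/

set_option autoImplicit false

open CategoryTheory CategoryTheory.Limits AlgebraicGeometry TensorProduct IsLocalRing

namespace Groth.Agent.Ega4fib.H131.GeomInt

universe u

/-- Geometrically pointwise integral implies geometrically reduced. -/
theorem isGeomReducedAt_of_isGeomPtIntegralAt {k : Type u} [Field k] {X : Scheme.{u}}
    (f : X ⟶ Spec (CommRingCat.of k)) (x : X) (h : FBase.IsGeomPtIntegralAt f x) :
    FBase.IsGeomReducedAt f x := by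
  intro K _ _ x' hx'
  have := h K x' hx'
  infer_instance

/-- If the fibre of `f` is geometrically pointwise integral at `x`, the localizations of `K ⊗_A B` at
maximal ideals are domains, for every field `K` integral over `A`. -/
theorem isDomain_localization_aux {X Y : Scheme.{u}} (f : X ⟶ Y) (x : X)
    (hint : FBase.IsGeomPtIntegralAt (k := Y.residueField (f x)) (f.fiberToSpecResidueField (f x))
      (f.asFiber x)) {A B : Type u} [CommRing A] [CommRing B] [IsLocalRing A] [IsLocalRing B]
    [Algebra A B]
    (a : Spec (CommRingCat.of A) ⟶ Y) [Mono a] (b : Spec (CommRingCat.of B) ⟶ X) [Flat b]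
    [IsPreimmersion b]
    (h : b ≫ f = Spec.map (CommRingCat.ofHom (algebraMap A B)) ≫ a)
    (hb : b (IsLocalRing.closedPoint B) = x)
    (K : Type u) [Field K] [Algebra (Y.residueField (f x)) K] [Algebra A K]
    (hK' : (algebraMap A K).IsIntegral)
    (hK : Spec.map (CommRingCat.ofHom (algebraMap A K)) ≫ a =
      Spec.map (CommRingCat.ofHom (algebraMap (Y.residueField (f x)) K)) ≫
        Y.fromSpecResidueField (f x)) (P : Ideal (K ⊗[A] B)) [P.IsMaximal] :
    IsDomain (Localization.AtPrime P) := by
  have hPm := Ega43.GeomFibreStalk.comap_eq_maximalIdeal (B := B) hK' P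
  obtain ⟨x', hx', ⟨e⟩⟩ := Ega43.GeomFibreStalk.exists_ringEquiv_stalk f a b h
    (f x) K hK P (IsLocalRing.closedPoint B) hPm (f.asFiber x) (by
      rw [hb, Scheme.Hom.fiberι_asFiber])
  have := hint K x' hx'
  exact e.symm.toMulEquiv.isDomain _

/-- Version of `isDomain_localization_aux` for a given morphism from the residue field. -/
theorem isDomain_localization_aux2 {X Y : Scheme.{u}} (f : X ⟶ Y) (x : X)
    (hint : FBase.IsGeomPtIntegralAt (k := Y.residueField (f x)) (f.fiberToSpecResidueField (f x))
      (f.asFiber x)) (A B : CommRingCat.{u}) [IsLocalRing A] [IsLocalRing B]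
    [Algebra A B]
    (a : Spec A ⟶ Y) [Mono a] (b : Spec B ⟶ X) [Flat b]
    [IsPreimmersion b]
    (h : b ≫ f = Spec.map (CommRingCat.ofHom (algebraMap A B)) ≫ a)
    (hb : b (IsLocalRing.closedPoint B) = x)
    (K : Type u) [Field K] [Algebra A K]
    (hK' : (algebraMap A K).IsIntegral)
    (φ : Y.residueField (f x) ⟶ CommRingCat.of K)
    (hK : Spec.map (CommRingCat.ofHom (algebraMap A K)) ≫ a =
      Spec.map φ ≫ Y.fromSpecResidueField (f x)) (P : Ideal (K ⊗[A] B)) [P.IsMaximal] :
    IsDomain (Localization.AtPrime P) := by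
  let _ : Algebra (Y.residueField (f x)) K := φ.hom.toAlgebra
  exact isDomain_localization_aux (A := A) (B := B) f x hint a b h hb K hK' hK P

/-- If all localizations of `κ(A) ⊗_A B` at maximal ideals are domains then `𝔪_A B` is prime. -/
theorem isPrime_map {A B : Type u} [CommRing A] [CommRing B] [IsLocalRing A] [IsLocalRing B]
    [Algebra A B] [IsLocalHom (algebraMap A B)]
    (H : ∀ (P : Ideal (ResidueField A ⊗[A] B)) [P.IsMaximal], IsDomain (Localization.AtPrime P)) :
    ((maximalIdeal A).map (algebraMap A B)).IsPrime := by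
  have hs : Function.Surjective (algebraMap A (ResidueField A)) := residue_surjective
  obtain ⟨hloc, -⟩ := FlatRed.isLocalRing_tensor (A := A) (B := B) (A₀ := ResidueField A) hs
  let P := maximalIdeal (ResidueField A ⊗[A] B)
  have hdom : IsDomain (Localization.AtPrime P) := H P
  have hunits : ∀ y : P.primeCompl, IsUnit (y : ResidueField A ⊗[A] B) := by
    intro y
    by_contra h
    exact y.2 ((mem_maximalIdeal _).mpr h)
  have hdom' : IsDomain (ResidueField A ⊗[A] B) := by
    have hinj : Function.Injective
        (algebraMap (ResidueField A ⊗[A] B) (Localization.AtPrime P)) := by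
      apply IsLocalization.injective _ (M := P.primeCompl)
      intro y hy
      exact (hunits ⟨y, hy⟩).mem_nonZeroDivisors
    exact hinj.isDomain _
  have hker := FlatRed.ker_includeRight (A := A) (B := B) (A₀ := ResidueField A) hs
  have h1 : RingHom.ker (algebraMap A (ResidueField A)) = maximalIdeal A := by
    ext a
    rw [RingHom.mem_ker]
    exact residue_eq_zero_iff a
  rw [h1] at hker
  rw [← hker]
  exact RingHom.ker_isPrime _

/-- Compatibility of a map from `𝒪_y` to a field with the residue field. -/
theorem exists_residueField_hom (Y : Scheme.{u}) (y : Y) (K : Type u) [Field K]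
    (ψ : Y.presheaf.stalk y ⟶ CommRingCat.of K) (hψ : IsLocalHom ψ.hom) :
    ∃ φ : Y.residueField y ⟶ CommRingCat.of K,
      Spec.map ψ ≫ Y.fromSpecStalk y = Spec.map φ ≫ Y.fromSpecResidueField y := by
  refine ⟨Scheme.descResidueField ψ, ?_⟩
  rw [Scheme.descResidueField_fromSpecResidueField]

end Groth.Agent.Ega4fib.H131.GeomInt
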