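import Mathlib.LinearAlgebra.TensorProduct.Quotient
import Mathlib.RingTheory.LocalRing.ResidueField.Basic
import Groth.Agent.FlatA.FibreCrit

/-!
# Injectivity modulo the maximal ideal

Element forms of the local criterion: a linear map `u : N → M` with `u x ∈ 𝔪 M → x ∈ 𝔪 N` is
injective after tensoring with the residue field, hence injective when `M` is flat and `N` finite
over a Noetherian local algebra.
-/

set_option autoImplicit false

open IsLocalRing TensorProduct

namespace Groth.Agent.Ega4fib.H131.ResInj

universe u

/-- Every element of `κ ⊗ N` is a pure tensor `1 ⊗ n`. -/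
theorem exists_eq_one_tmul {A N : Type u} [CommRing A] [IsLocalRing A] [AddCommGroup N]
    [Module A N] (x : ResidueField A ⊗[A] N) : ∃ n : N, x = (1 : ResidueField A) ⊗ₜ[A] n := by
  induction x with
  | zero => exact ⟨0, by rw [tmul_zero]⟩
  | tmul a e =>
    obtain ⟨a, rfl⟩ := residue_surjective a
    refine ⟨a • e, ?_⟩
    rw [TensorProduct.tmul_smul, TensorProduct.smul_tmul']
    congr 1
    rw [Algebra.smul_def, mul_one]
    rfl
  | add x y hx hy =>
    obtain ⟨e, rfl⟩ := hx
    obtain ⟨e', rfl⟩ := hy
    exact ⟨e + e', by rw [tmul_add]⟩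

/-- A linear map reflecting membership in `𝔪 M` is injective modulo `𝔪`. -/
theorem lTensor_residue_injective {A N M : Type u} [CommRing A] [IsLocalRing A] [AddCommGroup N]
    [Module A N] [AddCommGroup M] [Module A M] (u : N →ₗ[A] M)
    (h : ∀ x, u x ∈ (maximalIdeal A) • (⊤ : Submodule A M) →
      x ∈ (maximalIdeal A) • (⊤ : Submodule A N)) :
    Function.Injective (u.lTensor (ResidueField A)) := by
  rw [injective_iff_map_eq_zero]
  intro x hx
  obtain ⟨n, rfl⟩ := exists_eq_one_tmul x
  have h1 : (1 : ResidueField A) ⊗ₜ[A] u n = 0 := hx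
  have h2 : (TensorProduct.quotTensorEquivQuotSMul M (maximalIdeal A))
      ((1 : ResidueField A) ⊗ₜ[A] u n) = 0 := (LinearEquiv.map_eq_zero_iff _).mpr h1
  have h3 : (TensorProduct.quotTensorEquivQuotSMul M (maximalIdeal A))
      ((1 : ResidueField A) ⊗ₜ[A] u n) = Submodule.Quotient.mk (u n) := by
    have := TensorProduct.quotTensorEquivQuotSMul_mk_tmul (M := M) (maximalIdeal A) 1 (u n)
    rw [one_smul] at this
    exact this
  rw [h3, Submodule.Quotient.mk_eq_zero] at h2
  have h4 := h n h2
  have h5 : (TensorProduct.quotTensorEquivQuotSMul N (maximalIdeal A))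
      ((1 : ResidueField A) ⊗ₜ[A] n) = Submodule.Quotient.mk n := by
    have := TensorProduct.quotTensorEquivQuotSMul_mk_tmul (M := N) (maximalIdeal A) 1 n
    rw [one_smul] at this
    exact this
  rw [← Submodule.Quotient.mk_eq_zero, ← h5] at h4
  exact (LinearEquiv.map_eq_zero_iff _).mp h4

/-- Same for a map between algebras. -/
theorem lTensor_residue_injective_algebra {A E C : Type u} [CommRing A] [IsLocalRing A]
    [CommRing E] [CommRing C] [Algebra A E] [Algebra A C] (u : E →ₗ[A] C)
    (h : ∀ x, u x ∈ (maximalIdeal A).map (algebraMap A C) →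
      x ∈ (maximalIdeal A).map (algebraMap A E)) :
    Function.Injective (u.lTensor (ResidueField A)) := by
  refine lTensor_residue_injective u fun x hx => ?_
  rw [Ideal.smul_top_eq_map] at hx ⊢
  exact h x hx

/-- Local criterion, element form: a linear map `u : E → C` of `A`-algebras, `E` Noetherian local over
the local ring `A`, `C` flat over `A`, which reflects membership in `𝔪_A C`, is injective. -/
theorem injective_of_reflects {A E C : Type u} [CommRing A] [IsLocalRing A]
    [CommRing E] [IsLocalRing E] [IsNoetherianRing E] [CommRing C] [Algebra A E] [Algebra A C]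
    [IsLocalHom (algebraMap A E)] [Module.Flat A C] (u : E →ₗ[A] C)
    (h : ∀ x, u x ∈ (maximalIdeal A).map (algebraMap A C) →
      x ∈ (maximalIdeal A).map (algebraMap A E)) : Function.Injective u :=
  (FlatA.FibreCrit.injective_and_flat_of_residue_injective (S := E)
    FlatA.FibreCrit.map_maximalIdeal_le_jacobson u (lTensor_residue_injective_algebra u h)).1

/-- If `B` is a flat Noetherian local `A`-algebra and `𝔪_A B` is a prime ideal, every element outside
`𝔪_A B` is a nonzerodivisor. -/
theorem mul_left_injective_of_notMem {A B : Type u} [CommRing A] [IsLocalRing A] [CommRing B]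
    [IsLocalRing B] [IsNoetherianRing B] [Algebra A B] [IsLocalHom (algebraMap A B)]
    [Module.Flat A B] (hP : ((maximalIdeal A).map (algebraMap A B)).IsPrime) (b : B)
    (hb : b ∉ (maximalIdeal A).map (algebraMap A B)) : b ∈ nonZeroDivisors B := by
  have h1 : Function.Injective (LinearMap.mulLeft A b) := by
    refine injective_of_reflects (LinearMap.mulLeft A b) fun x hx => ?_
    rw [LinearMap.mulLeft_apply] at hx
    exact (hP.mem_or_mem hx).resolve_left hb
  rw [mem_nonZeroDivisors_iff]
  refine ⟨fun x hx => ?_, fun x hx => ?_⟩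
  · apply h1
    rw [LinearMap.mulLeft_apply, map_zero]
    exact hx
  · apply h1
    rw [LinearMap.mulLeft_apply, map_zero, mul_comm]
    exact hx

end Groth.Agent.Ega4fib.H131.ResInj
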